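import Cfsg.Agent.Lib.OddChar.AbCent

/-!
# Strongly embedded subgroups all of whose involutions have the same centralizer
-/

set_option autoImplicit false

namespace Cfsg.Lib.OddChar

open Subgroup MulAction Cfsg.Lib.Inv Cfsg.Lib.Transfer Cfsg.Lib.Perm Cfsg.Lib.Small

variable {G : Type*} [Group G] [Finite G]

theorem se_exists_inv_coset {H : Subgroup G} (h : IsStronglyEmbedded H)
    (h2 : 2 ≤ Nat.card {t : G // orderOf t = 2 ∧ t ∈ H}) (g : G) :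
    ∃ v : G, v * v = 1 ∧ g⁻¹ * v ∈ H ∧ v ⋆ H = g ⋆ H := by
  have h1 := se_card_coset h g
  obtain ⟨v, h4, h5⟩ := (Nat.card_pos_iff.1 (show 0 < _ by rw [h1]; omega)).1
  refine ⟨v, mul_self_of_orderOf h4, h5, ?_⟩
  conv_rhs => rw [← conj_eq_self_of_mem h5, conj_conj, mul_inv_cancel_left]

/-- `H` is strongly embedded, `C` is the centralizer of each involution of `H`, and `C` meets the
other conjugates of `H` trivially. -/
structure SEC (H C : Subgroup G) : Prop where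
  se : IsStronglyEmbedded H
  two : 2 ≤ Nat.card {t : G // orderOf t = 2 ∧ t ∈ H}
  cent : ∀ t ∈ H, orderOf t = 2 → centralizer ({t} : Set G) = C
  ti : ∀ g ∉ H, ∀ x ∈ C, x ∈ g ⋆ H → x = 1

namespace SEC

variable {H C : Subgroup G} (h : SEC H C) {s t u v w d g k a b c x : G}
include h

theorem le : C ≤ H := by
  obtain ⟨s, hs, h2⟩ := se_exists_inv_mem h.se
  exact h.cent s hs h2 ▸ se_centralizer_le h.se h2 hs

omit [Finite G] in
theorem mem (ht : t ∈ H) (h2 : orderOf t = 2) : g ∈ C ↔ g * t = t * g := by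
  rw [← h.cent t ht h2, mem_centralizer_singleton_iff]

theorem conj_mem (hg : g ∈ H) (hc : c ∈ C) : g * c * g⁻¹ ∈ C := by
  obtain ⟨s, hs, h2⟩ := se_exists_inv_mem h.se
  refine (h.mem (mul_mem (mul_mem hg hs) (inv_mem hg)) ((orderOf_conj' g s).trans h2)).2 ?_
  calc _ = g * (c * s) * g⁻¹ := by group
    _ = _ := by rw [(h.mem hs h2).1 hc]; group

theorem exists_inv_coset (g : G) : ∃ v : G, v * v = 1 ∧ g⁻¹ * v ∈ H ∧ v ⋆ H = g ⋆ H :=
  se_exists_inv_coset h.se h.two g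

theorem exists_mul (hu : u * u = 1) (huH : u ∉ H) (hg : g ∈ H) :
    ∃ d ∈ H, u * d * u⁻¹ = d⁻¹ ∧ ∃ c ∈ C, g = d * c := by
  obtain ⟨s, hs, h2⟩ := se_exists_inv_mem h.se
  obtain ⟨k, hk, e1, e2⟩ := se_exists_inverted_conj h.se hu huH h2 hs
    ((orderOf_conj' g s).trans h2) (mul_mem (mul_mem hg hs) (inv_mem hg))
  refine ⟨k⁻¹, inv_mem hk, by rw [← conj_inv, e1], k * g, (h.mem hs h2).2 ?_, by group⟩
  calc k * g * s = k * (g * s * g⁻¹) * g := by group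
    _ = _ := by rw [← e2]; group

theorem inverts (hu : u * u = 1) (huH : u ∉ H) (hd : d ∈ H ⊓ u ⋆ H) : u * d * u⁻¹ = d⁻¹ := by
  obtain ⟨k, hk, e, c, h1, rfl⟩ := h.exists_mul hu huH hd.1
  have := h.ti u huH c h1
    ((Subgroup.mul_mem_cancel_left _ (mem_inf.1 (mem_inf_conj_of_inverted hu hk e)).2).1
      (mem_inf.1 hd).2)
  rw [this, mul_one, e]

theorem card_inf (hu : u * u = 1) (huH : u ∉ H) :
    Nat.card ↥(H ⊓ u ⋆ H) = Nat.card {t : G // orderOf t = 2 ∧ t ∈ H} :=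
  (card_subtype_congr fun _ => ⟨fun hd => ⟨hd.1, h.inverts hu huH hd⟩,
    fun hd => mem_inf_conj_of_inverted hu hd.1 hd.2⟩).trans (se_card_inverted h.se hu huH)

theorem exists_mul' (hu : u * u = 1) (huH : u ∉ H) (hg : g ∈ H) :
    ∃ d ∈ H ⊓ u ⋆ H, ∃ c ∈ C, g = d * c := by
  obtain ⟨k, hk, e, c, h1, h2⟩ := h.exists_mul hu huH hg
  exact ⟨k, mem_inf_conj_of_inverted hu hk e, c, h1, h2⟩

theorem fix_two (hu : u * u = 1) (huH : u ∉ H) (hd : d ∈ H ⊓ u ⋆ H) (h1 : d ≠ 1)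
    (hg : d ∈ g ⋆ H) : g ∈ H ∨ u⁻¹ * g ∈ H := by
  by_contra! hn
  obtain ⟨v, hv, h2, h3⟩ := h.exists_inv_coset g
  have hvH : v ∉ H := fun e => hn.1 (by simpa using mul_mem e (inv_mem h2))
  have h4 := h.inverts hu huH hd
  have h5 := h.inverts hv hvH ⟨hd.1, h3 ▸ hg⟩
  have h6 : (u⁻¹ * v)⁻¹ * d * (u⁻¹ * v) = d := by
    calc _ = v⁻¹ * (u * d * u⁻¹) * v := by group
      _ = _ := by rw [h4, ← h5]; group
  obtain ⟨w, hw, h7, h8⟩ := h.exists_inv_coset (u⁻¹ * v)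
  have hwH : w ∉ H := fun e => hn.2 (by
    simpa [mul_assoc] using mul_mem (mul_mem e (inv_mem h7)) (inv_mem h2))
  have h9 := h.inverts hw hwH ⟨hd.1, h8 ▸ mem_conj.2 (h6.symm ▸ hd.1)⟩
  obtain ⟨k, hk, t, ht, e⟩ := h.exists_mul' hu huH h7
  have h10 := comm_of_inverted (fun _ => h.inverts hu huH) hk hd
  have h11 : t * d * t⁻¹ = d⁻¹ := by
    calc _ = k⁻¹ * (k * t) * d * (k * t)⁻¹ * k := by group
      _ = k⁻¹ * ((u⁻¹ * v)⁻¹ * (w * d * w⁻¹) * (u⁻¹ * v)) * k := by rw [← e]; group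
      _ = (k⁻¹ * ((u⁻¹ * v)⁻¹ * d * (u⁻¹ * v)) * k)⁻¹ := by rw [h9]; group
      _ = _ := by rw [h6, mul_assoc, ← h10, inv_mul_cancel_left]
  have h12 : (d * d)⁻¹ ∈ C := by
    have := mul_mem ht (h.conj_mem hd.1 (inv_mem ht))
    rwa [← mul_assoc, ← mul_assoc, h11, ← mul_inv_rev] at this
  exact h1 (eq_one_of_odd_of_mul_self (odd_orderOf_of_mem (se_odd_inf_conj h.se huH) hd)
    (inv_eq_one.1 (h.ti u huH _ h12 (inv_mem (mul_mem hd.2 hd.2)))))

theorem exists_mem_inf (hu : u * u = 1) (huH : u ∉ H) : ∃ d ∈ H ⊓ u ⋆ H, d ≠ 1 :=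
  (bot_or_exists_ne_one _).resolve_left fun e => by
    have h1 := h.card_inf hu huH
    have h2 := h.two
    rw [e, card_bot] at h1
    omega

theorem eq_one_of_comm (hu : u * u = 1) (huH : u ∉ H) (hd : d ∈ H ⊓ u ⋆ H) (h1 : d ≠ 1)
    (hx : x ∈ C) (e : d * x = x * d) : x = 1 := by
  rcases h.fix_two (g := x * u) hu huH hd h1 (mem_conj.2 (by
    convert mem_conj.1 hd.2 using 1
    calc _ = u⁻¹ * (x⁻¹ * (d * x)) * u := by group
      _ = _ := by rw [e]; group)) with h2 | h2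
  · exact absurd ((mul_mem_cancel_left (h.le hx)).1 h2) huH
  · exact h.ti u huH _ hx (mem_conj.2 (by rwa [mul_assoc]))

theorem exists_smul (hu : u ∉ H) (hv : v ∉ H) : ∃ t ∈ C, (t * u)⁻¹ * v ∈ H := by
  obtain ⟨u', h1, h2, -⟩ := h.exists_inv_coset u
  obtain ⟨v', h3, h4, h5⟩ := h.exists_inv_coset v
  have hu' : u' ∉ H := fun e => hu (by simpa using mul_mem e (inv_mem h2))
  have hv' : v' ∉ H := fun e => hv (by simpa using mul_mem e (inv_mem h4))
  obtain ⟨d, hd, h6⟩ := h.exists_mem_inf h3 hv'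
  obtain ⟨k, hk, t, ht, rfl⟩ := h.exists_mul' h1 hu' hd.1
  have h7 : k ≠ 1 := fun e => h6 (h.ti v' hv' _ (by rwa [e, one_mul]) hd.2)
  let f : C → C := fun s => ⟨k⁻¹ * s * k * (s : G)⁻¹,
    mul_mem (by simpa using h.conj_mem (inv_mem hk.1) s.2) (inv_mem s.2)⟩
  have hf : Function.Injective f := fun a b e => by
    have e : k⁻¹ * a * k * (a : G)⁻¹ = k⁻¹ * b * k * (b : G)⁻¹ := congrArg Subtype.val e
    refine Subtype.ext (inv_mul_eq_one.1 (h.eq_one_of_comm h1 hu' hk h7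
      (mul_mem (inv_mem b.2) a.2) ?_)).symm
    calc _ = (b : G)⁻¹ * k * (k⁻¹ * b * k * (b : G)⁻¹) * a := by group
      _ = _ := by rw [← e]; group
  obtain ⟨s, hs⟩ := Finite.surjective_of_injective hf ⟨t, ht⟩
  have hs : k⁻¹ * s * k * (s : G)⁻¹ = t := congrArg Subtype.val hs
  have h8 : k ∈ ((s : G)⁻¹ * v) ⋆ H := by
    rw [← conj_conj, ← h5, mem_conj]
    convert (mem_inf.1 hd).2 using 1
    rw [← hs]; group
  refine ⟨s, s.2, ?_⟩
  rcases h.fix_two h1 hu' hk h7 h8 with h9 | h9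
  · exact absurd ((mul_mem_cancel_left (h.le (inv_mem s.2))).1 h9) hv
  · simpa [mul_assoc] using mul_mem h2 h9

theorem existsUnique_smul {x y : G ⧸ H} (hx : x ≠ QuotientGroup.mk 1)
    (hy : y ≠ QuotientGroup.mk 1) : ∃! t : G, t ∈ C ∧ t • x = y := by
  obtain ⟨u, rfl⟩ := QuotientGroup.mk_surjective x
  obtain ⟨v, rfl⟩ := QuotientGroup.mk_surjective y
  have hu : u ∉ H := fun e => hx (QuotientGroup.eq.2 (by simpa using e))
  obtain ⟨t, ht, e⟩ := h.exists_smul hu fun e => hy (QuotientGroup.eq.2 (by simpa using e))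
  have e : t • (QuotientGroup.mk u : G ⧸ H) = QuotientGroup.mk v := QuotientGroup.eq.2 e
  refine ⟨t, ⟨ht, e⟩, fun s ⟨hs, e'⟩ => (inv_mul_eq_one.1 (h.ti u hu _
    (mul_mem (inv_mem ht) hs) (smul_mk_eq_iff.1 ?_))).symm⟩
  rw [mul_smul, e', ← e, inv_smul_smul]

theorem zt : ZT G (G ⧸ H) := by
  have two : ∀ a b c d : G ⧸ H, a ≠ b → c ≠ d → ∃ g : G, g • a = c ∧ g • b = d := by
    intro a b c d hab hcd
    obtain ⟨x, hx⟩ := exists_smul_eq G a (QuotientGroup.mk 1)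
    obtain ⟨y, hy⟩ := exists_smul_eq G c (QuotientGroup.mk 1)
    obtain ⟨t, ⟨ht, e⟩, -⟩ := h.existsUnique_smul (x := x • b) (y := y • d)
      (hx ▸ (MulAction.injective x).ne hab.symm) (hy ▸ (MulAction.injective y).ne hcd.symm)
    refine ⟨y⁻¹ * t * x, ?_, by rw [mul_smul, mul_smul, e, inv_smul_smul]⟩
    rw [mul_smul, mul_smul, hx, ElemCent.smul_one_eq_iff.2 (h.le ht), ← hy, inv_smul_smul]
  obtain ⟨u, huH, hu⟩ := se_exists_inv_not_mem h.se
  have hne : (QuotientGroup.mk 1 : G ⧸ H) ≠ QuotientGroup.mk u := fun e =>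
    huH (by simpa using QuotientGroup.eq.1 e)
  refine ⟨two, fun g a b c hab hbc hac ha hb hc' => ?_, ?_⟩
  · obtain ⟨x, h1, h2⟩ := two _ _ a b hne hab
    obtain ⟨y, hy⟩ := QuotientGroup.mk_surjective (x⁻¹ • c)
    have key : ∀ z : G ⧸ H, g • x • z = x • z → (x⁻¹ * g * x) • z = z := fun z e => by
      rw [mul_smul, mul_smul, e, inv_smul_smul]
    by_contra h3
    rcases h.fix_two (g := y) (mul_self_of_orderOf hu) huH
      ⟨ElemCent.smul_one_eq_iff.1 (key _ (h1 ▸ ha)), smul_mk_eq_iff.1 (key _ (h2 ▸ hb))⟩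
      (by simpa [mul_assoc, inv_mul_eq_one] using h3)
      (smul_mk_eq_iff.1 (key _ (by rwa [hy, smul_inv_smul]))) with h4 | h4
    · exact hac (by rw [← h1, ← smul_inv_smul x c, ← hy, QuotientGroup.eq.2 (by simpa using h4)])
    · exact hbc (by rw [← h2, ← smul_inv_smul x c, ← hy, QuotientGroup.eq.2 h4])
  · have h1 := se_odd_index h.se
    have h2 : H.index ≠ 1 := mt index_eq_one.1 h.se.1
    obtain ⟨m, hm⟩ := h1
    change 3 ≤ H.index
    omega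

theorem zker_eq : C = zker G (QuotientGroup.mk 1 : G ⧸ H) :=
  h.zt.eq_zker_of_reg (fun _ ht => ElemCent.smul_one_eq_iff.2 (h.le ht))
    fun y z hy hz => by
      obtain ⟨t, ⟨ht, e⟩, h1⟩ := h.existsUnique_smul hy hz
      exact ⟨⟨t, ht⟩, e, fun s hs => Subtype.ext (h1 s ⟨s.2, hs⟩)⟩

/-- Either `C` is elementary abelian, or it is a Suzuki `2`-group of order `q ^ 2`. -/
theorem sq_or : (∀ c ∈ C, c * c = 1) ∨
    (IsPGroup 2 C ∧ ¬ IsMulCommutative C ∧ Nat.card C = Nat.card (om C) ^ 2) := by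
  obtain ⟨u, huH, hu⟩ := se_exists_inv_not_mem h.se
  have hne : (QuotientGroup.mk 1 : G ⧸ H) ≠ QuotientGroup.mk u := fun e =>
    huH (by simpa using QuotientGroup.eq.1 e)
  have e : stab2 G (QuotientGroup.mk 1 : G ⧸ H) (QuotientGroup.mk u) = H ⊓ u ⋆ H := by
    ext g
    rw [mem_stab2, ElemCent.smul_one_eq_iff, smul_mk_eq_iff, mem_inf]
  obtain ⟨s, hs, hs2⟩ := se_exists_inv_mem h.se
  obtain ⟨d, hd, hd1⟩ := h.exists_mem_inf (mul_self_of_orderOf hu) huH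
  have h0 : stab2 G (QuotientGroup.mk 1 : G ⧸ H) (QuotientGroup.mk u) ≠ ⊥ :=
    e ▸ fun e1 => hd1 (mem_bot.1 (e1 ▸ hd))
  obtain h2 | ⟨h1, h2, -⟩ := h.zt.feit_even hne
    (h.zker_eq ▸ even_card_of_involution_mem hs2 ((h.mem hs hs2).2 rfl)) h0
  · rw [← h.zker_eq, e, h.card_inf (mul_self_of_orderOf hu) huH] at h2
    have h1 := card_subtype_ne_add_one (P := fun t : G => t ∈ C) (x := 1) (one_mem _)
    have h3 : {t : G | orderOf t = 2 ∧ t ∈ H} = {t | t ∈ C ∧ t ≠ 1} :=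
      Set.eq_of_subset_of_ncard_le
        (fun t ht => ⟨(h.mem ht.2 ht.1).2 rfl, ne_one_of_orderOf ht.1⟩) (by
          rw [← Nat.card_coe_set_eq, ← Nat.card_coe_set_eq]
          exact (Nat.succ_injective (h1.trans h2.symm)).le)
    refine Or.inl fun c hc => ?_
    by_cases h4 : c = 1
    · rw [h4, one_mul]
    exact mul_self_of_orderOf (h3.ge ⟨hc, h4⟩).1
  · have hna := mt commutator_self_eq_bot_iff.2 h2
    obtain ⟨-, -, -, h3⟩ := h.zt.suzuki_card hne h0 h1 hna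
    rw [← h.zker_eq] at h1 hna h3
    exact Or.inr ⟨h1, hna, h3⟩

end SEC

end Cfsg.Lib.OddChar
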